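import Mathlib
import Cfsg.Agent.Lib.Helper41.CS3.GoodDefs
import Cfsg.Agent.Lib.Helper24.CS3.Basics
import Cfsg.Agent.Lib.Helper67.SylowLemmas
import Cfsg.Agent.S4035

/-!
# Project CS3 (S4284), part [GOOD]: package [G1] (`C(a) = Sa × N`)
-/

set_option autoImplicit false

namespace Cfsg.Agent.Lib.Helper90.CS3

open Cfsg.Agent.Lib.Helper41.CS3 Cfsg.Agent.Lib.Helper81.CS3

universe u

/-- `|H ⊓ K| * |K : H ⊓ K| = |K|`. -/
theorem card_inf_mul_relIndex_g1 {G : Type u} [Group G] (H K : Subgroup G) :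
    Nat.card ↥(H ⊓ K) * H.relIndex K = Nat.card K := by
  have h1 := (H.subgroupOf K).card_mul_index
  have h2 : Nat.card (H.subgroupOf K) = Nat.card ↥(H ⊓ K) := by
    rw [← Subgroup.inf_subgroupOf_right]
    exact Nat.card_congr (Subgroup.subgroupOfEquivOfLe inf_le_right).toEquiv
  rw [h2] at h1
  exact h1

/-- In a finite group `C = P H` with `H` normal and `P ≤ L`: `|C : L| = |H : L ⊓ H|`, as
`|H| = |L ⊓ H| * |C : L|`. -/
theorem card_eq_inf_mul_index {C : Type u} [Group C] [Finite C] (P H L : Subgroup C)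
    (hHn : H.Normal) (hsup : P ⊔ H = ⊤) (hPL : P ≤ L) :
    Nat.card H = Nat.card ↥(L ⊓ H) * L.index := by
  have htop : L ⊔ H = ⊤ := by
    rw [eq_top_iff, ← hsup]
    exact sup_le_sup_right hPL H
  have h1 : H.index = H.relIndex L := by
    have h := Subgroup.relIndex_sup_right (H := L) (K := H)
    rw [htop, Subgroup.relIndex_top_right] at h
    exact h
  have h2 := H.card_mul_index
  have h3 := card_inf_mul_relIndex_g1 H L
  have h4 := card_inf_mul_relIndex_g1 L H
  have h5 := L.card_mul_index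
  have h6 : Nat.card ↥(H ⊓ L) = Nat.card ↥(L ⊓ H) := by rw [inf_comm]
  rw [h6] at h3
  have hpos1 : 0 < Nat.card ↥(L ⊓ H) := Nat.card_pos
  have hpos2 : 0 < H.relIndex L := by
    rw [← h1]
    exact Nat.pos_of_ne_zero (Subgroup.index_ne_zero_of_finite)
  -- |L ⊓ H| * relIndex L H * H.index = |C| = |L ⊓ H| * H.relIndex L * L.index
  have h7 : Nat.card ↥(L ⊓ H) * L.relIndex H * H.relIndex L =
      Nat.card ↥(L ⊓ H) * H.relIndex L * L.index := by
    rw [h4, h3, ← h1, h2, h5]
  have h8 : L.relIndex H = L.index := by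
    have h9 : (Nat.card ↥(L ⊓ H) * H.relIndex L) * L.relIndex H =
        (Nat.card ↥(L ⊓ H) * H.relIndex L) * L.index := by
      rw [← h7]
      ring
    exact Nat.eq_of_mul_eq_mul_left (Nat.mul_pos hpos1 hpos2) h9
  rw [← h8, h4]

/-- Package [G1]. -/
theorem pkgG1 : PkgG1.{u} := by
  intro G _ _ m n hyp s a hgood
  classical
  haveI : Fact s.Prime := ⟨hgood.sp⟩
  have hs := hgood.sp
  have hmn : m.Coprime n := hyp.2.2.2.1
  have hsn : ¬ s ∣ n := by
    intro h
    have h1 := Nat.dvd_gcd hgood.sm h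
    rw [show Nat.gcd m n = 1 from hmn] at h1
    exact hs.one_lt.ne' (Nat.dvd_one.mp h1)
  have hs1 : ¬ s ∣ 1 := fun h => hs.one_lt.ne' (Nat.dvd_one.mp h)
  -- the index of the centralizer of `x` inside `C(a)`
  have hcent : ∀ x : ↥(Cn a), Subgroup.centralizer ({x} : Set ↥(Cn a)) =
      (Cn (x : G)).subgroupOf (Cn a) := by
    intro x
    ext z
    rw [Subgroup.mem_centralizer_iff, Subgroup.mem_subgroupOf, Subgroup.mem_centralizer_iff]
    constructor
    · intro h t ht
      rw [Set.mem_singleton_iff] at ht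
      rw [ht]
      exact congrArg Subtype.val (h x rfl)
    · intro h t ht
      rw [Set.mem_singleton_iff] at ht
      rw [ht]
      exact Subtype.ext (h (x : G) rfl)
  have hB4 : ∀ x : ↥(Cn a), (orderOf x).Coprime s →
      (Subgroup.centralizer ({x} : Set ↥(Cn a))).index = 1 ∨
        (Subgroup.centralizer ({x} : Set ↥(Cn a))).index = n := by
    intro x hx
    rw [hcent x]
    have hax : Commute a (x : G) := by
      have h := Subgroup.mem_centralizer_iff.mp x.2 a rfl
      exact h
    have hco : (orderOf a).Coprime (orderOf (x : G)) := by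
      obtain ⟨k, hk⟩ := hgood.prim
      rw [hk, Subgroup.orderOf_coe]
      exact Nat.Coprime.pow_left k hx.symm
    exact Cfsg.Agent.Lib.Helper24.CS3.relIndex_of_coprime hyp a x hgood.ixa hax hco
  have hcls : ∀ x : ↥(Cn a), (orderOf x).Coprime s →
      ¬ s ∣ (ConjClasses.mk x).carrier.ncard := by
    intro x hx
    rw [Cfsg.Agent.Lib.Helper67.ncard_conjClasses_carrier]
    rcases hB4 x hx with h | h
    · rw [h]
      exact hs1
    · rw [h]
      exact hsn
  have P : Sylow s ↥(Cn a) := default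
  obtain ⟨hPn, H, hHn, hH, hinf, hsup⟩ := Cfsg.Agent.S4035.result hcls P
  have hinj : Function.Injective (Cn a).subtype := Subtype.val_injective
  have hHcop : (Nat.card H).Coprime s :=
    ((Nat.Prime.coprime_iff_not_dvd hs).mpr hH).symm
  have hcomm : ∀ x ∈ (P : Subgroup ↥(Cn a)), ∀ y ∈ H, x * y = y * x := by
    intro x hx y hy
    exact Subgroup.commute_of_normal_of_disjoint _ _ hPn hHn (disjoint_iff.mpr hinf) x y hx hy
  refine ⟨(P : Subgroup ↥(Cn a)).map (Cn a).subtype, H.map (Cn a).subtype, ?_, ?_, ?_, ?_, ?_⟩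
  · -- comm
    intro x hx y hy
    obtain ⟨x', hx', rfl⟩ := Subgroup.mem_map.mp hx
    obtain ⟨y', hy', rfl⟩ := Subgroup.mem_map.mp hy
    exact congrArg Subtype.val (hcomm x' hx' y' hy')
  · -- sup
    rw [← Subgroup.map_sup, hsup, ← MonoidHom.range_eq_map, Subgroup.range_subtype]
  · -- pS
    exact P.isPGroup'.map _
  · -- cop
    rw [Subgroup.card_map_of_injective hinj]
    exact hHcop
  · -- cls
    intro y hy
    obtain ⟨y', hy', rfl⟩ := Subgroup.mem_map.mp hy
    have hy'ord : (orderOf y').Coprime s :=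
      Nat.Coprime.coprime_dvd_left (Subgroup.orderOf_dvd_natCard H hy') hHcop
    have hPL : (P : Subgroup ↥(Cn a)) ≤ Subgroup.centralizer ({y'} : Set ↥(Cn a)) := by
      intro x hx
      rw [Subgroup.mem_centralizer_iff]
      intro t ht
      rw [Set.mem_singleton_iff] at ht
      rw [ht]
      exact (hcomm x hx y' hy').symm
    have hcard := card_eq_inf_mul_index (P : Subgroup ↥(Cn a)) H
      (Subgroup.centralizer ({y'} : Set ↥(Cn a))) hHn hsup hPL
    have hmap : (Cn ((Cn a).subtype y') ⊓ H.map (Cn a).subtype : Subgroup G) =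
        (Subgroup.centralizer ({y'} : Set ↥(Cn a)) ⊓ H).map (Cn a).subtype := by
      rw [Subgroup.map_inf _ _ _ hinj, hcent y', Subgroup.subgroupOf_map_subtype]
      have hle : H.map (Cn a).subtype ≤ Cn a := Subgroup.map_subtype_le H
      rw [inf_assoc, inf_eq_right.mpr hle]
      rfl
    rw [hmap, Subgroup.card_map_of_injective hinj, Subgroup.card_map_of_injective hinj, hcard]
    rcases hB4 y' hy'ord with h | h
    · left
      rw [h, mul_one]
    · right
      rw [h, mul_comm]

end Cfsg.Agent.Lib.Helper90.CS3
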